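import Mathlib
import Cfsg.Agent.FixBN.GoodOne
import Cfsg.Agent.H255.RoSz_m3
import Cfsg.Agent.FixBN.U3One
import Cfsg.Agent.FixBN.RankOneL2
import Cfsg.Agent.FixBN.GoodSplit
import Cfsg.Agent.FastGrp
import Cfsg.Agent.Prune
set_option linter.all false

section
prune_inst 0x7f00000000000000000000000000000000000000000000000000000000000000000000000000000000000000000000000000000000000000000000000000000000000000000000000000000000000000003fffffffffffffffffffffffffffbeffbdffffffff

-- part: H255/Panel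
section
set_option linter.all false
open scoped Cfsg.Agent.FastGrp

/-!
# Coprime automorphisms of families of root groups on a panel

`PanelOK U` : for an `r`-group `A` of permutations normalising the family `U` (`r` prime to the order of the group
generated by the family): `A` has three fixed points, and an `r'`-permutation `z` normalising the family, commuting
with `A`, trivial on the fixed points of `A` (in the set and in the group) is trivial.
-/

set_option autoImplicit false

namespace Cfsg.Agent.H255.Panel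

open Cfsg.Agent.FixBN

variable {Om : Type*}

/-- the group generated by the root groups -/
abbrev gen (U : Om → Subgroup (Equiv.Perm Om)) : Subgroup (Equiv.Perm Om) := ⨆ y, U y

/-- the conclusion, for a given group `A` -/
def Concl (U : Om → Subgroup (Equiv.Perm Om)) (r : ℕ) (A : Subgroup (Equiv.Perm Om)) : Prop :=
  (∃ a b c : Om, a ≠ b ∧ a ≠ c ∧ b ≠ c ∧ ∀ g ∈ A, g a = a ∧ g b = b ∧ g c = c) ∧
    ∀ z ∈ famStab U, (∀ a ∈ A, z * a = a * z) → ∀ m : ℕ, ¬ r ∣ m → z ^ m = 1 →
      (∀ y, (∀ a ∈ A, a y = y) → z y = y) →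
      (∀ g ∈ gen U, (∀ a ∈ A, a * g = g * a) → z * g = g * z) → z = 1

/-- the property of the family of the root groups -/
def PanelOK (U : Om → Subgroup (Equiv.Perm Om)) : Prop :=
  ∀ (r : ℕ) [Fact r.Prime], ¬ r ∣ Nat.card ↥(gen U) →
    ∀ A : Subgroup (Equiv.Perm Om), IsPGroup r A → A ≤ famStab U → Concl U r A

/-- a family of root groups -/
structure RG (U : Om → Subgroup (Equiv.Perm Om)) : Prop where
  fix : ∀ y, ∀ g ∈ U y, g y = y
  reg : ∀ y a b, a ≠ y → b ≠ y → ∃ g ∈ U y, g a = b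
  free : ∀ y, ∀ g ∈ U y, ∀ a, a ≠ y → g a = a → g = 1
  stab : ∀ y, U y ≤ famStab U
  three : ∀ a b : Om, ∃ c, c ≠ a ∧ c ≠ b

/-- stable sets have fixed points -/
theorem exists_fixed {r : ℕ} [Fact r.Prime] {A : Subgroup (Equiv.Perm Om)}
    (hA : IsPGroup r A) (S : Set Om) (hst : ∀ a ∈ A, ∀ x ∈ S, a x ∈ S) (hc : ¬ r ∣ Nat.card S) :
    ∃ x ∈ S, ∀ a ∈ A, a x = x := by
  let act : MulAction A S :=
    { smul := fun a x => ⟨a.1 x.1, hst a.1 a.2 x.1 x.2⟩
      one_smul := fun x => Subtype.ext rfl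
      mul_smul := fun a b x => Subtype.ext rfl }
  obtain ⟨x, hx⟩ := hA.nonempty_fixed_point_of_prime_not_dvd_card (α := S) hc
  exact ⟨x.1, x.2, fun a ha => congrArg Subtype.val (hx ⟨a, ha⟩)⟩

namespace RG

variable {U : Om → Subgroup (Equiv.Perm Om)} (h : RG U)

include h

theorem gen_le : gen U ≤ famStab U := iSup_le h.stab

theorem trans (a b : Om) : ∃ g ∈ gen U, g a = b := by
  obtain ⟨y, h1, h2⟩ := h.three a b
  obtain ⟨g, hg, h3⟩ := h.reg y a b h1.symm h2.symm
  exact ⟨g, le_iSup U y hg, h3⟩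

theorem trans2 {a b c d : Om} (hab : a ≠ b) (hcd : c ≠ d) : ∃ g ∈ gen U, g a = c ∧ g b = d := by
  obtain ⟨g, hg, h1⟩ := h.trans a c
  have h2 : g b ≠ c := by rw [← h1]; exact fun h => hab (g.injective h).symm
  obtain ⟨k, hk, h3⟩ := h.reg c (g b) d h2 hcd.symm
  refine ⟨k * g, mul_mem (le_iSup U c hk) hg, ?_, ?_⟩
  · rw [Equiv.Perm.mul_apply, h1, h.fix c k hk]
  · rw [Equiv.Perm.mul_apply, h3]

theorem card_dvd [Finite Om] (a : Om) : Nat.card Om ∣ Nat.card ↥(gen U) := by
  have h1 : (MulAction.orbit ↥(gen U) a) = Set.univ := by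
    ext b
    obtain ⟨g, hg, hb⟩ := h.trans a b
    exact ⟨fun _ => trivial, fun _ => ⟨⟨g, hg⟩, hb⟩⟩
  have h2 : Nat.card Om = Nat.card (MulAction.orbit ↥(gen U) a) := by
    rw [h1, Nat.card_univ]
  rw [h2, Nat.card_congr (MulAction.orbitEquivQuotientStabilizer ↥(gen U) a)]
  exact Subgroup.index_dvd_card _

theorem card_ne [Finite Om] (y : Om) : Nat.card {x : Om // x ≠ y} = Nat.card (U y) := by
  obtain ⟨a, ha, -⟩ := h.three y y
  symm
  refine Nat.card_congr (Equiv.ofBijective (fun u : U y => (⟨u.1 a, fun h1 => ha (u.1.injective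
    (h1.trans (h.fix y u.1 u.2).symm))⟩ : {x : Om // x ≠ y})) ⟨?_, ?_⟩)
  · intro u v huv
    have h1 : u.1 a = v.1 a := congrArg Subtype.val huv
    have h2 : (v.1⁻¹ * u.1) a = a := by
      rw [Equiv.Perm.mul_apply, h1]; exact v.1.symm_apply_apply a
    have h3 := h.free y (v.1⁻¹ * u.1) (mul_mem (inv_mem v.2) u.2) a ha h2
    exact Subtype.ext (inv_mul_eq_one.1 h3).symm
  · rintro ⟨b, hb⟩
    obtain ⟨g, hg, h1⟩ := h.reg y a b ha hb
    exact ⟨⟨g, hg⟩, Subtype.ext h1⟩

theorem exists_two [Finite Om] {r : ℕ} [Fact r.Prime] (hr : ¬ r ∣ Nat.card ↥(gen U))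
    {A : Subgroup (Equiv.Perm Om)} (hA : IsPGroup r A) (p : Om) :
    ∃ y z : Om, y ≠ z ∧ ∀ a ∈ A, a y = y ∧ a z = z := by
  obtain ⟨y, -, hy⟩ := exists_fixed hA Set.univ (fun _ _ _ _ => trivial) (by
    rw [Nat.card_univ]
    exact fun h1 => hr (h1.trans (h.card_dvd p)))
  obtain ⟨z, hz, hz'⟩ := exists_fixed hA {x : Om | x ≠ y} (fun a ha x hx h1 => hx (a.injective
    (h1.trans (hy a ha).symm))) (by
    have := h.card_ne y
    intro h1
    apply hr
    have h2 : Nat.card ({x : Om | x ≠ y} : Set Om) = Nat.card (U y) := this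
    rw [h2] at h1
    exact h1.trans (Subgroup.card_dvd_of_le (le_iSup U y)))
  exact ⟨y, z, fun h => hz h.symm, fun a ha => ⟨hy a ha, hz' a ha⟩⟩

omit h in
theorem _root_.Cfsg.Agent.H255.Panel.Concl.of_conj {r : ℕ} {A : Subgroup (Equiv.Perm Om)} {g : Equiv.Perm Om}
    (hg : g ∈ gen U) (hgs : g ∈ famStab U) (hC : Concl U r (A.map (MulAut.conj g⁻¹).toMonoidHom)) : Concl U r A := by
  have hmem : ∀ a ∈ A, g⁻¹ * a * g ∈ A.map (MulAut.conj g⁻¹).toMonoidHom := by
    intro a ha
    refine ⟨a, ha, ?_⟩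
    change g⁻¹ * a * g⁻¹⁻¹ = _
    rw [inv_inv]
  have hmem' : ∀ b ∈ A.map (MulAut.conj g⁻¹).toMonoidHom, ∃ a ∈ A, b = g⁻¹ * a * g := by
    rintro _ ⟨a, ha, rfl⟩
    refine ⟨a, ha, ?_⟩
    change g⁻¹ * a * g⁻¹⁻¹ = _
    rw [inv_inv]
  have hfx : ∀ (a : Equiv.Perm Om) (x : Om), (g⁻¹ * a * g) x = x → a (g x) = g x := by
    intro a x hx
    have h1 : g ((g⁻¹ * a * g) x) = g x := by rw [hx]
    have h2 : g ((g⁻¹ * a * g) x) = (g * (g⁻¹ * a * g)) x := rfl
    have h3 : g * (g⁻¹ * a * g) = a * g := by group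
    rw [h2, h3] at h1
    exact h1
  have hfx' : ∀ (a : Equiv.Perm Om) (x : Om), a (g x) = g x → (g⁻¹ * a * g) x = x := by
    intro a x hx
    change g⁻¹ (a (g x)) = x
    rw [hx]
    exact g.symm_apply_apply x
  obtain ⟨⟨a, b, c, h1, h2, h3, h4⟩, h5⟩ := hC
  refine ⟨⟨g a, g b, g c, fun h => h1 (g.injective h), fun h => h2 (g.injective h), fun h => h3 (g.injective h), ?_⟩, ?_⟩
  · intro k hk
    obtain ⟨h6, h7, h8⟩ := h4 _ (hmem k hk)
    exact ⟨hfx _ _ h6, hfx _ _ h7, hfx _ _ h8⟩
  · intro z hz hzA m hm hzm hzf hzg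
    have h6 := h5 (g⁻¹ * z * g) (mul_mem (mul_mem (inv_mem hgs) hz) hgs) (by
      intro b hb
      obtain ⟨a, ha, rfl⟩ := hmem' b hb
      have e1 : g⁻¹ * z * g * (g⁻¹ * a * g) = g⁻¹ * (z * a) * g := by group
      have e2 : g⁻¹ * a * g * (g⁻¹ * z * g) = g⁻¹ * (a * z) * g := by group
      rw [e1, e2, hzA a ha]) m hm (by
      have e1 : (g⁻¹ * z * g) ^ m = g⁻¹ * z ^ m * g := by
        have := conj_pow (i := m) (a := g⁻¹) (b := z)
        rw [inv_inv] at this
        exact this
      rw [e1, hzm]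
      group) (by
      intro y hy
      apply hfx'
      apply hzf
      intro a ha
      exact hfx _ _ (hy _ (hmem a ha))) (by
      intro k hk hkA
      have h7 := hzg (g * k * g⁻¹) (mul_mem (mul_mem hg hk) (inv_mem hg)) (by
        intro a ha
        have h8 := hkA _ (hmem a ha)
        have e1 : a * (g * k * g⁻¹) = g * (g⁻¹ * a * g * k) * g⁻¹ := by group
        have e2 : g * k * g⁻¹ * a = g * (k * (g⁻¹ * a * g)) * g⁻¹ := by group
        rw [e1, e2, h8])
      have e1 : g⁻¹ * z * g * k = g⁻¹ * (z * (g * k * g⁻¹)) * g := by group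
      have e2 : k * (g⁻¹ * z * g) = g⁻¹ * (g * k * g⁻¹ * z) * g := by group
      rw [e1, e2, h7])
    have h7 : z = g * (g⁻¹ * z * g) * g⁻¹ := by group
    rw [h7, h6]
    group

/-- It suffices to treat groups fixing two given points. -/
theorem panelOK [Finite Om] {p q : Om} (hpq : p ≠ q)
    (main : ∀ (r : ℕ) [Fact r.Prime], ¬ r ∣ Nat.card ↥(gen U) → ∀ A : Subgroup (Equiv.Perm Om), IsPGroup r A →
      A ≤ famStab U → (∀ a ∈ A, a p = p ∧ a q = q) → Concl U r A) : PanelOK U := by
  intro r hrf hr A hA hAU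
  obtain ⟨y, z, hyz, h1⟩ := h.exists_two hr hA p
  obtain ⟨g, hg, h2, h3⟩ := h.trans2 hpq hyz
  have hgs := h.gen_le hg
  refine Concl.of_conj hg hgs (main r hr _ (hA.map _) ?_ ?_)
  · rintro _ ⟨a, ha, rfl⟩
    exact mul_mem (mul_mem (inv_mem hgs) (hAU ha)) (inv_mem (inv_mem hgs))
  · rintro _ ⟨a, ha, rfl⟩
    have e : ∀ x, (MulAut.conj g⁻¹).toMonoidHom a x = g⁻¹ (a (g x)) := by
      intro x
      change (g⁻¹ * a * g⁻¹⁻¹) x = _
      rw [inv_inv]
      rfl
    rw [e, e, h2, h3, (h1 a ha).1, (h1 a ha).2]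
    constructor
    · rw [← h2]; exact g.symm_apply_apply p
    · rw [← h3]; exact g.symm_apply_apply q

end RG

/-- Transport under a bijection of the points. -/
theorem PanelOK.map {Om' : Type*} (e : Om ≃ Om') {U : Om → Subgroup (Equiv.Perm Om)}
    {U' : Om' → Subgroup (Equiv.Perm Om')} (hU : ∀ y g, g ∈ U y ↔ e.permCongr g ∈ U' (e y)) (h : PanelOK U) :
    PanelOK U' := by
  set f : Equiv.Perm Om ≃* Equiv.Perm Om' := e.permCongrHom with hf
  have hfa : ∀ g, f g = e.permCongr g := fun g => rfl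
  have hfx : ∀ (g : Equiv.Perm Om) (x : Om), f g (e x) = e (g x) := fun g x => by
    show e (g (e.symm (e x))) = e (g x)
    rw [e.symm_apply_apply]
  have hst : ∀ c : Equiv.Perm Om, c ∈ famStab U ↔ f c ∈ famStab U' := by
    intro c
    constructor
    · intro hc y g
      obtain ⟨y, rfl⟩ := e.surjective y
      obtain ⟨g, rfl⟩ := f.surjective g
      rw [hfx, ← map_mul, ← map_inv, ← map_mul, hfa, hfa, ← hU, ← hU]
      exact hc y g
    · intro hc y g
      have := hc (e y) (f g)
      rw [hfx, ← map_mul, ← map_inv, ← map_mul, hfa, hfa, ← hU, ← hU] at this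
      exact this
  have hgen : ∀ g, g ∈ gen U ↔ f g ∈ gen U' := by
    have h1 : (gen U).map f.toMonoidHom = gen U' := by
      rw [gen, Subgroup.map_iSup]
      apply le_antisymm
      · refine iSup_le fun y => ?_
        rintro _ ⟨g, hg, rfl⟩
        exact le_iSup U' (e y) ((hU y g).1 hg)
      · refine iSup_le fun y' => ?_
        obtain ⟨y, rfl⟩ := e.surjective y'
        refine le_trans ?_ (le_iSup (fun y => (U y).map f.toMonoidHom) y)
        intro g hg
        obtain ⟨g, rfl⟩ := f.surjective g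
        exact ⟨g, (hU y g).2 hg, rfl⟩
    intro g
    rw [← h1]
    constructor
    · intro hg
      exact ⟨g, hg, rfl⟩
    · rintro ⟨k, hk, hkg⟩
      rwa [← f.injective hkg]
  have hcard : Nat.card ↥(gen U) = Nat.card ↥(gen U') := by
    refine Nat.card_congr ((f.toEquiv.subtypeEquiv fun g => hgen g))
  intro r hrf hr A hA hAU
  let A' : Subgroup (Equiv.Perm Om) := A.comap f.toMonoidHom
  have hA' : IsPGroup r A' := hA.comap_of_injective _ f.injective
  obtain ⟨⟨a, b, c, h1, h2, h3, h4⟩, h5⟩ := h r (by rwa [hcard]) A' hA' (fun g hg => (hst g).2 (hAU hg))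
  refine ⟨⟨e a, e b, e c, fun h => h1 (e.injective h), fun h => h2 (e.injective h), fun h => h3 (e.injective h), ?_⟩, ?_⟩
  · intro g hg
    obtain ⟨g, rfl⟩ := f.surjective g
    rw [hfx, hfx, hfx]
    obtain ⟨h6, h7, h8⟩ := h4 g hg
    rw [h6, h7, h8]
    exact ⟨rfl, rfl, rfl⟩
  · intro z hz hzA m hm hzm hzf hzg
    obtain ⟨z, rfl⟩ := f.surjective z
    have h6 := h5 z ((hst z).2 hz) (fun a ha => f.injective (by rw [map_mul, map_mul]; exact hzA _ ha)) m hm
      (f.injective (by rw [map_pow, map_one]; exact hzm)) (fun y hy => by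
        apply e.injective
        rw [← hfx]
        apply hzf
        intro a ha
        obtain ⟨a, rfl⟩ := f.surjective a
        rw [hfx, hy a ha]) (fun g hg hgA => f.injective (by
        rw [map_mul, map_mul]
        apply hzg _ ((hgen g).1 hg)
        intro a ha
        obtain ⟨a, rfl⟩ := f.surjective a
        rw [← map_mul, ← map_mul, hgA a ha]))
    rw [h6, map_one]

end Cfsg.Agent.H255.Panel

private theorem dce_19d03e161207 : _root_.True := by
  try have : _root_.True := by simp only [_root_.Cfsg.Agent.H255.Panel.gen.eq_1]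
  exact _root_.True.intro
end

-- part: H255/PanelU3
section
set_option linter.all false
open scoped Cfsg.Agent.FastGrp

-- part: H255/Semi
section
/-!
# Descent for groups of semilinear maps of a field
-/

set_option autoImplicit false

namespace Cfsg.Agent.H255.Semi

open Cfsg.Agent.H255.Galois

variable {F : Type*} [Field F] {G : Type*} [Group G]

/-- the scalars -/
def scal (F : Type*) [Field F] : Fˣ →* MulAut (Multiplicative F) where
  toFun t :=
    { toFun := fun x => Multiplicative.ofAdd ((t : F) * x.toAdd)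
      invFun := fun x => Multiplicative.ofAdd ((t⁻¹ : Fˣ) * x.toAdd)
      left_inv := fun x => by
        apply Multiplicative.toAdd.injective
        change ((t⁻¹ : Fˣ) : F) * (t * x.toAdd) = x.toAdd
        rw [← mul_assoc, Units.inv_mul, one_mul]
      right_inv := fun x => by
        apply Multiplicative.toAdd.injective
        change (t : F) * (((t⁻¹ : Fˣ) : F) * x.toAdd) = x.toAdd
        rw [← mul_assoc, Units.mul_inv, one_mul]
      map_mul' := fun x y => by
        apply Multiplicative.toAdd.injective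
        change (t : F) * (x.toAdd + y.toAdd) = t * x.toAdd + t * y.toAdd
        rw [mul_add] }
  map_one' := by
    ext x
    apply Multiplicative.toAdd.injective
    change (1 : F) * x.toAdd = x.toAdd
    rw [one_mul]
  map_mul' s t := by
    ext x
    apply Multiplicative.toAdd.injective
    change ((s * t : Fˣ) : F) * x.toAdd = s * (t * x.toAdd)
    rw [Units.val_mul, mul_assoc]

/-- **Descent for semilinear maps.** -/
theorem semi [Finite F] (f : G → F → F) (h1 : ∀ x, f 1 x = x) (hmul : ∀ g h x, f (g * h) x = f g (f h x))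
    (hs : ∀ g, ∃ e : F, e ≠ 0 ∧ ∃ τ : F →+* F, ∀ x, f g x = e * τ x) {r : ℕ} [hrf : Fact r.Prime]
    (hr : ¬ r ∣ Nat.card F - 1) (A : Subgroup G) (hA : IsPGroup r A) :
    (∃ w : F, w ≠ 0 ∧ ∀ a ∈ A, f a w = w) ∧
      ∀ z : G, ∀ m : ℕ, ¬ r ∣ m → z ^ m = 1 → (∀ w, (∀ a ∈ A, f a w = w) → f z w = w) → ∀ x, f z x = x := by
  have hadd : ∀ g x y, f g (x + y) = f g x + f g y := by
    intro g x y
    obtain ⟨e, -, τ, h⟩ := hs g
    rw [h, h, h, map_add, mul_add]
  have hzero : ∀ g, f g 0 = 0 := by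
    intro g
    obtain ⟨e, -, τ, h⟩ := hs g
    rw [h, map_zero, mul_zero]
  have hinv : ∀ g x, f g⁻¹ (f g x) = x := fun g x => by rw [← hmul, inv_mul_cancel, h1]
  have hinv' : ∀ g x, f g (f g⁻¹ x) = x := fun g x => by rw [← hmul, mul_inv_cancel, h1]
  let ρ : G →* MulAut (Multiplicative F) :=
    { toFun := fun g =>
        { toFun := fun x => Multiplicative.ofAdd (f g x.toAdd)
          invFun := fun x => Multiplicative.ofAdd (f g⁻¹ x.toAdd)
          left_inv := fun x => Multiplicative.toAdd.injective (hinv g x.toAdd)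
          right_inv := fun x => Multiplicative.toAdd.injective (hinv' g x.toAdd)
          map_mul' := fun x y => Multiplicative.toAdd.injective (hadd g x.toAdd y.toAdd) }
      map_one' := by
        ext x
        exact Multiplicative.toAdd.injective (h1 x.toAdd)
      map_mul' := fun g h => by
        ext x
        exact Multiplicative.toAdd.injective (hmul g h x.toAdd) }
  have hρ : ∀ g x, ρ g (Multiplicative.ofAdd x) = Multiplicative.ofAdd (f g x) := fun g x => rfl
  -- a fixed point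
  have hfix : ∃ w : F, w ≠ 0 ∧ ∀ a ∈ A, f a w = w := by
    let act : MulAction A {x : F // x ≠ 0} :=
      { smul := fun a x => ⟨f a.1 x.1, fun h => x.2 (by
          have := hinv a.1 x.1
          rw [h, hzero] at this
          exact this.symm)⟩
        one_smul := fun x => Subtype.ext (h1 x.1)
        mul_smul := fun a b x => Subtype.ext (hmul a.1 b.1 x.1) }
    have hcard : Nat.card {x : F // x ≠ 0} = Nat.card F - 1 := by
      rw [← Nat.card_units]
      exact Nat.card_congr unitsEquivNeZero.symm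
    obtain ⟨x, hx⟩ := hA.nonempty_fixed_point_of_prime_not_dvd_card (α := {x : F // x ≠ 0}) (by rwa [hcard])
    exact ⟨x.1, x.2, fun a ha => congrArg Subtype.val (hx ⟨a, ha⟩)⟩
  refine ⟨hfix, ?_⟩
  intro z m hm hzm hz
  obtain ⟨w, hw, hwA⟩ := hfix
  have hnorm : ∀ g, ρ g ∈ Subgroup.normalizer ((scal F).range : Set (MulAut (Multiplicative F))) := by
    have key : ∀ g, ∀ t ∈ (scal F).range, ρ g * t * (ρ g)⁻¹ ∈ (scal F).range := by
      rintro g _ ⟨t, rfl⟩
      obtain ⟨e, he, τ, h⟩ := hs g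
      refine ⟨Units.map (τ : F →* F) t, ?_⟩
      rw [eq_mul_inv_iff_mul_eq]
      ext x
      apply Multiplicative.toAdd.injective
      change τ (t : F) * f g x.toAdd = f g (t * x.toAdd)
      rw [h, h, map_mul]
      ring
    intro g
    rw [Subgroup.mem_normalizer_iff]
    intro t
    refine ⟨key g t, fun h => ?_⟩
    have h2 := key g⁻¹ _ h
    rw [map_inv, inv_inv] at h2
    have h3 : (ρ g)⁻¹ * (ρ g * t * (ρ g)⁻¹) * ρ g = t := by group
    rwa [h3] at h2
  have h2 := descent (T := (scal F).range) (by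
    rintro _ ⟨s, rfl⟩ _ ⟨t, rfl⟩
    rw [← map_mul, ← map_mul, mul_comm]) (by
    intro X hX
    by_cases h : X = ⊥
    · exact Or.inl h
    · right
      obtain ⟨⟨x, hx⟩, hx1'⟩ := Subgroup.ne_bot_iff_exists_ne_one.1 h
      have hx1 : x ≠ 1 := fun h => hx1' (Subtype.ext h)
      rw [eq_top_iff]
      intro y _
      by_cases hy : y = 1
      · rw [hy]; exact one_mem _
      have hx0 : (x : Multiplicative F).toAdd ≠ 0 := fun h => hx1 (Multiplicative.toAdd.injective h)
      have hy0 : y.toAdd ≠ 0 := fun h => hy (Multiplicative.toAdd.injective h)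
      have h3 := hX (scal F (Units.mk0 (y.toAdd / (x : Multiplicative F).toAdd) (div_ne_zero hy0 hx0))) ⟨_, rfl⟩ _ hx
      have h4 : scal F (Units.mk0 (y.toAdd / (x : Multiplicative F).toAdd) (div_ne_zero hy0 hx0)) x = y := by
        apply Multiplicative.toAdd.injective
        change (y.toAdd / (x : Multiplicative F).toAdd) * (x : Multiplicative F).toAdd = y.toAdd
        exact div_mul_cancel₀ _ hx0
      rwa [h4] at h3) (A.map ρ) (hA.map _) (by
    rintro _ ⟨a, -, rfl⟩
    exact hnorm a) (ρ z) (hnorm z) hm (by rw [← map_pow, hzm, map_one])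
    (w0 := Multiplicative.ofAdd w) (fun h => hw (Multiplicative.ofAdd.injective h)) (by
    rintro _ ⟨a, ha, rfl⟩
    rw [hρ, hwA a ha]) (by
    intro x hx
    have h3 := hz x.toAdd (fun a ha => Multiplicative.ofAdd.injective (hx (ρ a) ⟨a, ha, rfl⟩))
    exact congrArg Multiplicative.ofAdd h3)
  intro x
  have h3 := congrArg (fun k : MulAut (Multiplicative F) => k (Multiplicative.ofAdd x)) h2
  exact Multiplicative.ofAdd.injective h3

end Cfsg.Agent.H255.Semi
end

-- part: H255/PanelU3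
section
/-!
# The hermitian unital over a field of odd order
-/

set_option autoImplicit false

namespace Cfsg.Agent.H255.PanelU3

open Cfsg.Agent.FixBN Cfsg.Agent.H255.Panel Cfsg.Agent.FixBN.RankOneU3 Cfsg.Agent.FixBN.U3Model Cfsg.Agent.FixBN.U3Core
  Cfsg.Agent.FixBN.U3One

variable {F : Type*} [Field F] {σ : F →+* F} [H : Inv2 σ]

local notation "tl" => U3Model.tr
local notation "tp" => RankOneU3.toPt

theorem rg (hF : UF σ) : RG (u3Fam σ) where
  fix y g hg := by
    obtain ⟨a, rfl⟩ := hg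
    have h1 : (tp y)⁻¹ y = (none : Om σ) := by
      have h2 := (tp y).symm_apply_apply (none : Om σ)
      rw [U3One.toPt_apply] at h2
      exact h2
    change tp y (tl a ((tp y)⁻¹ y)) = y
    rw [h1, U3Model.tr_none, U3One.toPt_apply]
  reg y a b ha hb := by
    have h1 : ∀ c : Om σ, c ≠ y → ∃ s : Pt σ, (tp y)⁻¹ c = some s := by
      intro c hc
      rcases h : (tp y)⁻¹ c with _ | s
      · exfalso
        apply hc
        rw [← U3One.toPt_apply y, ← h]
        exact ((tp y).apply_symm_apply c).symm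
      · exact ⟨s, rfl⟩
    obtain ⟨s, hs⟩ := h1 a ha
    obtain ⟨t, ht⟩ := h1 b hb
    refine ⟨tp y * tl (t * s⁻¹) * (tp y)⁻¹, ⟨_, rfl⟩, ?_⟩
    change tp y (tl (t * s⁻¹) ((tp y)⁻¹ a)) = b
    rw [hs, U3Model.tr_some, inv_mul_cancel_right, ← ht]
    exact (tp y).apply_symm_apply b
  free y g hg a ha hga := by
    by_contra hg1
    exact ha (by
      have := eq_of_fix hg hg1 hga
      exact this)
  stab y := by
    rintro _ ⟨a, rfl⟩
    exact mul_mem (mul_mem (toPt_mem y) (tl_mem a)) (inv_mem (toPt_mem y))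
  three a b := by
    obtain ⟨x, hx⟩ := exists_pt hF (1 : F)
    have hx1 : x ≠ 1 := by
      rintro rfl
      rw [one_a] at hx
      exact zero_ne_one hx
    by_contra hcon
    push Not at hcon
    have h1 := hcon none
    have h2 := hcon (some 1)
    have h3 := hcon (some x)
    rcases a with _ | a
    · have h4 := h2 (by simp)
      have h5 := h3 (by simp)
      rw [← h5] at h4
      exact hx1 (Option.some_injective _ h4).symm
    · have h4 := h1 (by simp)
      subst h4
      by_cases ha : (some 1 : Om σ) = some a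
      · have ha' : (some x : Om σ) ≠ some a := by
          rw [← ha]
          intro h
          exact hx1 (Option.some_injective _ h)
        exact Option.some_ne_none _ (h3 ha')
      · exact Option.some_ne_none _ (h2 ha)

theorem tl_mem_gen (a : Pt σ) : tl a ∈ gen (u3Fam σ) := le_iSup (u3Fam σ) none (mem_none.2 ⟨a, rfl⟩)

theorem jtj_mem_gen (a : Pt σ) : jj * tl a * jj ∈ gen (u3Fam σ) := by
  refine le_iSup (u3Fam σ) (some 1) (mem_some.2 ⟨a, ?_⟩)
  rw [tl_one, one_mul, jj_inv]

theorem dp_mem (x y : Pt σ) (hx : x ≠ 1) (hy : y ≠ 1) :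
    dp (lam x) (lam_ne_zero hx) * (dp (lam y) (lam_ne_zero hy))⁻¹ ∈ gen (u3Fam σ) := by
  have h1 : ∀ x : Pt σ, ∀ hx : x ≠ 1, dp (lam x) (lam_ne_zero hx) =
      (jj * (tl (J x))⁻¹ * jj) * tl x * jj * tl (J x⁻¹) := by
    intro x hx
    rw [mu_perm hx]
    group
  rw [h1 x hx, h1 y hy]
  have h2 : ∀ a b c d e f : Equiv.Perm (Om σ), a * b * jj * c * (d * e * jj * f)⁻¹ =
      a * b * (jj * (c * f⁻¹) * jj⁻¹) * e⁻¹ * d⁻¹ := by
    intro a b c d e f
    group
  rw [h2, jj_inv, tl_inv, tl_inv, tl_inv, tl_mul]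
  exact mul_mem (mul_mem (mul_mem (mul_mem (jtj_mem_gen _) (tl_mem_gen _)) (jtj_mem_gen _))
    (tl_mem_gen _)) (inv_mem (by rw [tl_inv]; exact jtj_mem_gen _))

theorem dp_some (c : F) (hc : c ≠ 0) (x : Pt σ) : dp c hc (some x) = some (D c x) := rfl

theorem dp_one : dp (σ := σ) 1 one_ne_zero = 1 := by
  apply Equiv.ext
  rintro (_ | x)
  · rfl
  · rw [dp_some, D_one']; rfl

theorem dp_mul (c d : F) (hc : c ≠ 0) (hd : d ≠ 0) :
    dp (σ := σ) c hc * dp d hd = dp (c * d) (mul_ne_zero hc hd) := by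
  apply Equiv.ext
  rintro (_ | x)
  · rfl
  · rw [Equiv.Perm.mul_apply, dp_some, dp_some, dp_some, D_D]

theorem dp_pow (c : F) (hc : c ≠ 0) (n : ℕ) : (dp (σ := σ) c hc) ^ n = dp (c ^ n) (pow_ne_zero n hc) := by
  induction n with
  | zero =>
    rw [pow_zero]
    have : ∀ e : F, ∀ he : e ≠ 0, e = 1 → dp (σ := σ) e he = 1 := by
      rintro e he rfl
      exact dp_one
    exact (this _ _ (pow_zero c)).symm
  | succ n ih =>
    rw [pow_succ, ih, dp_mul]
    have : ∀ e f : F, ∀ he : e ≠ 0, ∀ hf : f ≠ 0, e = f → dp (σ := σ) e he = dp f hf := by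
      rintro e f he hf rfl
      rfl
    exact this _ _ _ _ (pow_succ c n).symm

/-- the torus elements in the group -/
theorem dp_mem_gen (hF : UF σ) {u : F} (hu : u ≠ 0) :
    dp (σ := σ) (σ u * σ u / u) (div_ne_zero (mul_ne_zero ((map_ne_zero σ).2 hu) ((map_ne_zero σ).2 hu)) hu) ∈
      gen (u3Fam σ) := by
  obtain ⟨x, hx⟩ := exists_pt_b hF u
  obtain ⟨y, hy⟩ := exists_pt_b hF (1 : F)
  have hx1 : x ≠ 1 := by
    rintro rfl
    rw [one_b] at hx
    exact hu hx.symm
  have hy1 : y ≠ 1 := by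
    rintro rfl
    rw [one_b] at hy
    exact zero_ne_one hy
  have h1 := dp_mem x y hx1 hy1
  have h2 : dp (σ := σ) (lam y) (lam_ne_zero hy1) = 1 := by
    have : ∀ e : F, ∀ he : e ≠ 0, e = 1 → dp (σ := σ) e he = 1 := by
      rintro e he rfl
      exact dp_one
    refine this _ _ ?_
    unfold lam
    rw [hy, map_one, mul_one, div_one]
  rw [h2, inv_one, mul_one] at h1
  have h3 : ∀ e f : F, ∀ he : e ≠ 0, ∀ hf : f ≠ 0, e = f → dp (σ := σ) e he = dp f hf := by
    rintro e f he hf rfl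
    rfl
  rw [h3 _ (lam x) _ (lam_ne_zero hx1) (by unfold lam; rw [hx])]
  exact h1

theorem finite_pt [Finite F] : Finite (Pt σ) :=
  Finite.of_injective (fun x : Pt σ => (x.a, x.b)) fun x y h => ext' (congrArg Prod.fst h) (congrArg Prod.snd h)

/-- the projection on the first coordinate -/
def pr (σ : F →+* F) [Inv2 σ] : Pt σ →* Multiplicative F where
  toFun x := Multiplicative.ofAdd x.a
  map_one' := rfl
  map_mul' x y := rfl

theorem mem_ker {x : Pt σ} : x ∈ (pr σ).ker ↔ x.a = 0 := by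
  rw [MonoidHom.mem_ker]
  exact Iff.rfl

theorem card_ker [Finite F] (hF : UF σ) : Nat.card (pr σ).ker =
    Nat.card {f : Fˣ // σ (f : F) = f} + 1 := by
  have hfin : Finite (Pt σ) := finite_pt
  obtain ⟨s, hs, hss⟩ := exists_skew hF
  have e : (pr σ).ker ≃ Option {f : Fˣ // σ (f : F) = f} := by
    classical
    have hb : ∀ x : Pt σ, x.a = 0 → σ x.b = - x.b := by
      intro x hx
      have := x.h
      rw [hx, zero_mul, add_zero] at this
      linear_combination this
    refine
      { toFun := fun x => if h : x.1.b = 0 then none else some ⟨Units.mk0 (x.1.b / s) (div_ne_zero h hs), by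
            rw [Units.val_mk0, map_div₀, hss, hb x.1 (mem_ker.1 x.2), neg_div_neg_eq]⟩
        invFun := fun f => f.elim 1 fun f => ⟨⟨0, s * (f.1 : F), by
            rw [map_mul, hss, f.2, map_zero]; ring⟩, by rw [mem_ker]⟩
        left_inv := ?_
        right_inv := ?_ }
    · rintro ⟨x, hx⟩
      rw [mem_ker] at hx
      by_cases h : x.b = 0
      · simp only [h]
        apply Subtype.ext
        apply ext'
        · exact hx.symm
        · exact h.symm
      · simp only [h]
        apply Subtype.ext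
        apply ext'
        · exact hx.symm
        · change s * (x.b / s) = x.b
          field_simp
    · rintro (_ | f)
      · have : ((1 : (pr σ).ker) : Pt σ).b = 0 := rfl
        simp only [Option.elim, this]
        rfl
      · have h1 : s * (f.1 : F) ≠ 0 := mul_ne_zero hs f.1.ne_zero
        simp only [Option.elim]
        refine (dif_neg h1).trans (congrArg some ?_)
        apply Subtype.ext
        apply Units.ext
        change s * (f.1 : F) / s = f.1
        field_simp
  rw [Nat.card_congr e, Finite.card_option]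

theorem card_pt [Finite F] (hF : UF σ) : Nat.card (Pt σ) = Nat.card F * Nat.card (pr σ).ker := by
  have hfin : Finite (Pt σ) := finite_pt
  have h1 := (pr σ).ker.card_mul_index
  have h2 : (pr σ).ker.index = Nat.card F := by
    rw [Subgroup.index_ker, MonoidHom.range_eq_top.2]
    · rw [Subgroup.card_top]
      rfl
    · intro a
      obtain ⟨x, hx⟩ := exists_pt hF a.toAdd
      exact ⟨x, congrArg Multiplicative.ofAdd hx⟩
  rw [h2] at h1
  rw [← h1, mul_comm]

/-- the order of the torus -/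
theorem not_dvd [Finite F] (hF : UF σ) {r : ℕ} [hrf : Fact r.Prime] (hr : ¬ r ∣ Nat.card ↥(gen (u3Fam σ))) :
    ¬ r ∣ Nat.card F - 1 := by
  have hfin : Finite (Pt σ) := finite_pt
  intro hd
  rw [← Nat.card_units] at hd
  obtain ⟨u, hu⟩ := exists_prime_orderOf_dvd_card' r hd
  have hu1 : (u : F) ^ r = 1 := by
    rw [← Units.val_pow_eq_pow_val, ← hu, pow_orderOf_eq_one, Units.val_one]
  have hune : (u : F) ≠ 1 := by
    intro h
    have h1 : u = 1 := Units.ext h
    rw [h1, orderOf_one] at hu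
    exact hrf.out.one_lt.ne hu
  have hu0 : (u : F) ≠ 0 := u.ne_zero
  -- an element of order `r` of the torus
  have key : ∀ v : F, v ≠ 0 → v ^ r = 1 → σ v * σ v / v ≠ 1 → False := by
    intro v hv hvr hc
    apply hr
    set c : F := σ v * σ v / v with hcdef
    have hc0 : c ≠ 0 := div_ne_zero (mul_ne_zero ((map_ne_zero σ).2 hv) ((map_ne_zero σ).2 hv)) hv
    have hcr : c ^ r = 1 := by
      rw [hcdef, div_pow, mul_pow, ← map_pow, hvr, map_one, one_mul, div_one]
    have h3 : orderOf (dp (σ := σ) c hc0) = r := by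
      refine orderOf_eq_prime ?_ ?_
      · rw [dp_pow]
        have : ∀ e : F, ∀ he : e ≠ 0, e = 1 → dp (σ := σ) e he = 1 := by
          rintro e he rfl
          exact dp_one
        exact this _ _ hcr
      · intro h
        obtain ⟨x, hx⟩ := exists_pt hF (1 : F)
        have h4 := congrArg (fun g : Equiv.Perm (Om σ) => g (some x)) h
        have h5 : dp (σ := σ) c hc0 (some x) = some x := h4
        rw [dp_some] at h5
        have h6 := congrArg Pt.a (Option.some_injective _ h5)
        rw [D_a, hx, mul_one] at h6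
        exact hc h6
    rw [← h3]
    exact Subgroup.orderOf_dvd_natCard _ (dp_mem_gen hF hv)
  have hprim : IsPrimitiveRoot (u : F) r := by
    rw [← hu]
    exact (IsPrimitiveRoot.coe_units_iff.2 (IsPrimitiveRoot.orderOf u))
  have hr1 : r ≠ 0 := hrf.out.ne_zero
  have : NeZero r := ⟨hr1⟩
  by_cases hσ : σ (u : F) = u
  · apply key u hu0 hu1
    rw [hσ, mul_div_assoc, div_self hu0, mul_one]
    exact hune
  -- `σ u = u⁻¹`
  have hinv : σ (u : F) * u = 1 := by
    by_contra hv
    have hvr : (σ (u : F) * u) ^ r = 1 := by rw [mul_pow, ← map_pow, hu1, map_one, one_mul]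
    have hv0 : σ (u : F) * u ≠ 0 := mul_ne_zero ((map_ne_zero σ).2 hu0) hu0
    have hvp : IsPrimitiveRoot (σ (u : F) * u) r := IsPrimitiveRoot.iff_orderOf.2 (orderOf_eq_prime hvr hv)
    obtain ⟨i, -, hi⟩ := hvp.eq_pow_of_pow_eq_one hu1
    apply hσ
    rw [← hi, map_pow, map_mul, H.invol, mul_comm (u : F)]
  by_cases hr3 : r = 3
  · subst hr3
    let Ks : Subgroup Fˣ :=
      { carrier := {f | σ (f : F) = f}
        one_mem' := by change σ ((1 : Fˣ) : F) = ((1 : Fˣ) : F); rw [Units.val_one, map_one]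
        mul_mem' := fun {a b} (ha : σ (a : F) = a) (hb : σ (b : F) = b) => by
          change σ ((a * b : Fˣ) : F) = ((a * b : Fˣ) : F)
          rw [Units.val_mul, map_mul, ha, hb]
        inv_mem' := fun {a} (ha : σ (a : F) = a) => by
          change σ ((a⁻¹ : Fˣ) : F) = ((a⁻¹ : Fˣ) : F)
          rw [Units.val_inv_eq_inv_val, map_inv₀, ha] }
    have h1 : Nat.card (pr σ).ker = Nat.card Ks + 1 := card_ker hF
    have h2 := card_pt hF
    have h3 : Nat.card (Om σ) = Nat.card (Pt σ) + 1 := Finite.card_option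
    have h4 : ¬ 3 ∣ Nat.card (Om σ) := fun h => hr (h.trans ((rg hF).card_dvd none))
    have h5 : ¬ 3 ∣ Nat.card (Pt σ) := by
      intro h
      apply hr
      have h6 := (rg hF).card_ne (none : Om σ)
      have h7 : Nat.card {x : Om σ // x ≠ none} = Nat.card (Pt σ) := by
        refine Nat.card_congr ⟨fun x => x.1.get (Option.isSome_iff_ne_none.2 x.2), fun x => ⟨some x, by simp⟩,
          fun x => Subtype.ext (by simp), fun x => by simp⟩
      rw [← h7, h6] at h
      exact h.trans (Subgroup.card_dvd_of_le (le_iSup (u3Fam σ) none))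
    rw [Nat.card_units] at hd
    have hF1 : 1 ≤ Nat.card F := Nat.card_pos
    obtain ⟨q, hq⟩ := hd
    have h6 : Nat.card F = 3 * q + 1 := by omega
    have h7 : Nat.card (Pt σ) = 3 * (q * (Nat.card Ks + 1)) + (Nat.card Ks + 1) := by
      rw [h2, h1, h6]; ring
    have h8 : 3 ∣ Nat.card Ks := by omega
    have h3p : Fact (Nat.Prime 3) := ⟨Nat.prime_three⟩
    obtain ⟨f, hf⟩ := exists_prime_orderOf_dvd_card' 3 h8
    have hfp : IsPrimitiveRoot ((f : Fˣ) : F) 3 := by
      have : orderOf (f : Fˣ) = 3 := by rw [Subgroup.orderOf_coe, hf]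
      rw [← this]
      exact (IsPrimitiveRoot.coe_units_iff.2 (IsPrimitiveRoot.orderOf (f : Fˣ)))
    obtain ⟨i, -, hi⟩ := hfp.eq_pow_of_pow_eq_one hu1
    apply hσ
    rw [← hi, map_pow]
    exact congrArg (· ^ i) f.2
  · apply key u hu0 hu1
    have h1 : σ (u : F) = (u : F)⁻¹ := eq_inv_of_mul_eq_one_left hinv
    rw [h1]
    intro h
    have h2 : (u : F) ^ 3 = 1 := by
      have h3 : ((u : F)⁻¹ * (u : F)⁻¹ / u) * (u : F) ^ 3 = 1 := by field_simp
      rw [h, one_mul] at h3
      exact h3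
    have h3 := hprim.dvd_of_pow_eq_one 3 h2
    exact hr3 ((Nat.prime_dvd_prime_iff_eq hrf.out Nat.prime_three).1 h3)

/-- the stabiliser of the two points -/
def stab2 (σ : F →+* F) [Inv2 σ] : Subgroup (Equiv.Perm (Om σ)) where
  carrier := {c | c ∈ famStab (u3Fam σ) ∧ c none = none ∧ c (some 1) = some 1}
  one_mem' := ⟨one_mem _, rfl, rfl⟩
  mul_mem' := fun {a b} ha hb => ⟨mul_mem ha.1 hb.1, by
    rw [Equiv.Perm.mul_apply, hb.2.1, ha.2.1], by
    rw [Equiv.Perm.mul_apply, hb.2.2, ha.2.2]⟩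
  inv_mem' := fun {a} ha => ⟨inv_mem ha.1, by
    rw [Equiv.Perm.inv_eq_iff_eq, ha.2.1], by
    rw [Equiv.Perm.inv_eq_iff_eq, ha.2.2]⟩

theorem exists_fn (hF : UF σ) (c : stab2 σ) : ∃ f : F → F, (∃ e : F, e ≠ 0 ∧ ∃ τ : F →+* F, ∀ x, f x = e * τ x) ∧
    ∀ x : Pt σ, ∃ y, c.1 (some x) = some y ∧ y.a = f x.a := by
  obtain ⟨φ, e, τ, h⟩ := exists_sl hF c.2.1 c.2.2.1 c.2.2.2
  exact ⟨fun x => e * τ x, ⟨e, h.ne, τ, fun _ => rfl⟩, fun x => ⟨φ x, h.val x, h.a x⟩⟩

/-- **The unital.** -/
theorem panelOK [Finite F] (hF : UF σ) : PanelOK (u3Fam σ) := by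
  classical
  have hfin : Finite (Pt σ) := finite_pt
  refine (rg hF).panelOK (p := none) (q := some 1) (by simp) ?_
  intro r hrf hr A hA hAU hfix
  have hrF := not_dvd hF hr
  choose fn hfn hfs using exists_fn (σ := σ) hF
  have hfs' : ∀ (c : stab2 σ) (x y : Pt σ), c.1 (some x) = some y → y.a = fn c x.a := by
    intro c x y h
    obtain ⟨y', h1, h2⟩ := hfs c x
    rw [h1] at h
    rw [← Option.some_injective _ h]
    exact h2
  have hAS : A ≤ stab2 σ := fun a ha => ⟨hAU ha, (hfix a ha).1, (hfix a ha).2⟩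
  have h1 : ∀ x, fn 1 x = x := by
    intro x
    obtain ⟨y, rfl⟩ := exists_pt hF x
    exact (hfs' 1 y y rfl).symm
  have hmul : ∀ g h x, fn (g * h) x = fn g (fn h x) := by
    intro g h x
    obtain ⟨y, rfl⟩ := exists_pt hF x
    obtain ⟨y', h2, h3⟩ := hfs h y
    obtain ⟨y'', h4, h5⟩ := hfs g y'
    rw [← h3, ← h5]
    exact (hfs' (g * h) y y'' (by
      change g.1 (h.1 (some y)) = some y''
      rw [h2, h4])).symm
  obtain ⟨⟨w, hw, hwA⟩, hz⟩ := Semi.semi (G := stab2 σ) fn h1 hmul hfn hrF (A.subgroupOf (stab2 σ))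
      (hA.comap_of_injective _ (stab2 σ).subtype_injective)
  -- lifting of the fixed points
  have hlift : ∀ w, (∀ a ∈ A.subgroupOf (stab2 σ), fn a w = w) → ∃ x : Pt σ, x.a = w ∧ ∀ a ∈ A, a (some x) = some x := by
    intro w hw
    obtain ⟨x₀, hx₀⟩ := exists_pt hF w
    obtain ⟨y, hy, hyA⟩ := exists_fixed hA {y : Om σ | ∃ x : Pt σ, y = some x ∧ x.a = w} (by
      rintro a ha _ ⟨x, rfl, hx⟩
      obtain ⟨y, h2, h3⟩ := hfs ⟨a, hAS ha⟩ x
      refine ⟨y, h2, ?_⟩
      rw [h3, hx]
      exact hw ⟨a, hAS ha⟩ ha) (by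
      have e : (pr σ).ker ≃ {y : Om σ | ∃ x : Pt σ, y = some x ∧ x.a = w} :=
        Equiv.ofBijective (fun k => ⟨some (x₀ * k.1), x₀ * k.1, rfl, by rw [mul_a, hx₀, mem_ker.1 k.2, add_zero]⟩)
          ⟨fun k l h => by
            have h2 := Option.some_injective _ (congrArg Subtype.val h)
            exact Subtype.ext (mul_left_cancel h2), by
            rintro ⟨_, x, rfl, hx⟩
            refine ⟨⟨x₀⁻¹ * x, ?_⟩, ?_⟩
            · rw [mem_ker, mul_a, inv_a, hx₀, hx]; ring
            · apply Subtype.ext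
              change some (x₀ * (x₀⁻¹ * x)) = some x
              rw [mul_inv_cancel_left]⟩
      rw [← Nat.card_congr e]
      intro h
      apply hr
      have h6 := (rg hF).card_ne (none : Om σ)
      have h7 : Nat.card {x : Om σ // x ≠ none} = Nat.card (Pt σ) := by
        refine Nat.card_congr ⟨fun x => x.1.get (Option.isSome_iff_ne_none.2 x.2), fun x => ⟨some x, by simp⟩,
          fun x => Subtype.ext (by simp), fun x => by simp⟩
      have h8 : r ∣ Nat.card (Pt σ) := h.trans (Subgroup.card_subgroup_dvd_card _)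
      rw [← h7, h6] at h8
      exact h8.trans (Subgroup.card_dvd_of_le (le_iSup (u3Fam σ) none)))
    obtain ⟨x, rfl, hx⟩ := hy
    exact ⟨x, hx, hyA⟩
  obtain ⟨x, hx, hxA⟩ := hlift w hwA
  refine ⟨⟨none, some 1, some x, by simp, by simp, ?_, ?_⟩, ?_⟩
  · intro h
    have h2 := Option.some_injective _ h
    rw [← h2, one_a] at hx
    exact hw hx.symm
  · intro g hg
    exact ⟨(hfix g hg).1, (hfix g hg).2, hxA g hg⟩
  · intro z hzU hzA m hm hzm hzf _
    have hz0 : z none = none := hzf _ fun a ha => (hfix a ha).1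
    have hz1 : z (some 1) = some 1 := hzf _ fun a ha => (hfix a ha).2
    have h3 := hz ⟨z, hzU, hz0, hz1⟩ m hm (Subtype.ext hzm) (by
      intro w hw
      obtain ⟨x, rfl, hxA⟩ := hlift w hw
      exact (hfs' ⟨z, hzU, hz0, hz1⟩ x x (hzf _ hxA)).symm)
    obtain ⟨φ, e, τ, h⟩ := exists_sl hF hzU hz0 hz1
    have h4 : ∀ a, e * τ a = a := by
      intro a
      obtain ⟨x, rfl⟩ := exists_pt hF a
      have h5 := hfs' ⟨z, hzU, hz0, hz1⟩ x (φ x) (h.val x)
      rw [h3, h.a] at h5
      exact h5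
    have he : e = 1 := by
      have := h4 1
      rwa [map_one, mul_one] at this
    subst he
    apply Equiv.ext
    rintro (_ | x)
    · exact hz0
    · rw [h.val]
      congr 1
      apply ext'
      · rw [h.a, h4]
      · have h5 := h4 x.b
        rw [one_mul] at h5
        rw [h.b, map_one, mul_one, one_mul, h5]

end Cfsg.Agent.H255.PanelU3
end

private theorem dce_91444a13599b : _root_.True := by
  try have : _root_.True := by simp only [_root_.Cfsg.Agent.FixBN.U3Model.Pt.mk.congr_simp]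
  exact _root_.True.intro
end

-- part: H255/NodeOdd
section
set_option linter.all false
open scoped Cfsg.Agent.FastGrp

-- part: H255/PanelL2
section
/-!
# The projective line over a field of odd order
-/

set_option autoImplicit false

namespace Cfsg.Agent.H255.PanelL2

open Cfsg.Agent.FixBN Cfsg.Agent.H255.Panel

variable {F : Type*} [Field F]

theorem rg : RG (lineFam F) where
  fix y g hg := lineFam_fix hg
  reg y a b ha hb := by
    have h1 : ∀ c : Option F, c ≠ y → ∃ s : F, (toPt y)⁻¹ c = some s := by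
      intro c hc
      rcases h : (toPt y)⁻¹ c with _ | s
      · exfalso
        apply hc
        rw [← toPt_apply y, ← h]
        exact ((toPt y).apply_symm_apply c).symm
      · exact ⟨s, rfl⟩
    obtain ⟨s, hs⟩ := h1 a ha
    obtain ⟨t, ht⟩ := h1 b hb
    refine ⟨toPt y * tr (t - s) * (toPt y)⁻¹, mem_lineFam.2 ⟨_, rfl⟩, ?_⟩
    change toPt y (tr (t - s) ((toPt y)⁻¹ a)) = b
    rw [hs, tr_some, add_sub_cancel, ← ht]
    exact (toPt y).apply_symm_apply b
  free y g hg a ha hga := by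
    obtain ⟨s, rfl⟩ := mem_lineFam.1 hg
    rcases h : (toPt y)⁻¹ a with _ | t
    · exfalso
      apply ha
      rw [← toPt_apply y, ← h]
      exact ((toPt y).apply_symm_apply a).symm
    · have h1 : toPt y (tr s ((toPt y)⁻¹ a)) = a := hga
      rw [h, tr_some] at h1
      have h2 : (toPt y)⁻¹ a = some (t + s) := by
        rw [← h1]; exact (toPt y).symm_apply_apply _
      rw [h] at h2
      have h3 : s = 0 := by
        have := Option.some_injective _ h2
        linear_combination -this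
      rw [h3, tr_zero]
      group
  stab y := by
    refine le_trans (le_iSup (lineFam F) y) ?_
    rw [iSup_lineFam]
    exact psl2_le_famStab
  three a b := by
    by_contra hcon
    push Not at hcon
    have h1 := hcon none
    have h2 := hcon (some 0)
    have h3 := hcon (some 1)
    rcases a with _ | a
    · have h4 := h2 (by simp)
      have h5 := h3 (by simp)
      rw [← h5] at h4
      exact zero_ne_one (Option.some_injective _ h4)
    · have h4 := h1 (by simp)
      subst h4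
      by_cases ha : (some 0 : Option F) = some a
      · have ha' : (some 1 : Option F) ≠ some a := by
          rw [← ha]
          intro h
          exact one_ne_zero (Option.some_injective _ h)
        exact Option.some_ne_none _ (h3 ha')
      · exact Option.some_ne_none _ (h2 ha)

/-- the torus elements `t ↦ s² t` -/
noncomputable def hh (s : F) : Equiv.Perm (Option F) := tr s * (ni * tr s⁻¹ * ni * tr s * ni)

theorem hh_some {s : F} (hs : s ≠ 0) (t : F) : hh s (some t) = some (s ^ 2 * t) := by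
  change tr s ((ni * tr s⁻¹ * ni * tr s * ni : Equiv.Perm (Option F)) (some t)) = _
  rw [dil_some hs, tr_some]
  congr 1
  ring

theorem hh_none {s : F} (hs : s ≠ 0) : hh s none = none := by
  change tr s ((ni * tr s⁻¹ * ni * tr s * ni : Equiv.Perm (Option F)) none) = _
  rw [dil_none hs, tr_none]

theorem hh_mem (s : F) : hh s ∈ psl2 F :=
  mul_mem (tr_mem _) (mul_mem (mul_mem (mul_mem (mul_mem ni_mem (tr_mem _)) ni_mem) (tr_mem _)) ni_mem)

theorem hh_pow_some {s : F} (hs : s ≠ 0) (n : ℕ) (t : F) : (hh s ^ n) (some t) = some ((s ^ 2) ^ n * t) := by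
  induction n generalizing t with
  | zero => rw [pow_zero, pow_zero, one_mul]; rfl
  | succ n ih =>
    have h1 : (s ^ 2) ^ n * (s ^ 2 * t) = (s ^ 2) ^ (n + 1) * t := by ring
    rw [pow_succ, Equiv.Perm.mul_apply, hh_some hs, ih, h1]

theorem hh_pow_none {s : F} (hs : s ≠ 0) (n : ℕ) : (hh s ^ n) none = none := by
  induction n with
  | zero => rw [pow_zero]; rfl
  | succ n ih => rw [pow_succ, Equiv.Perm.mul_apply, hh_none hs, ih]

/-- the stabiliser of the two points -/
def stab2 (F : Type*) [Field F] : Subgroup (Equiv.Perm (Option F)) where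
  carrier := {c | c ∈ famStab (lineFam F) ∧ c none = none ∧ c (some 0) = some 0}
  one_mem' := ⟨one_mem _, rfl, rfl⟩
  mul_mem' := fun {a b} ha hb => ⟨mul_mem ha.1 hb.1, by
    rw [Equiv.Perm.mul_apply, hb.2.1, ha.2.1], by
    rw [Equiv.Perm.mul_apply, hb.2.2, ha.2.2]⟩
  inv_mem' := fun {a} ha => ⟨inv_mem ha.1, by
    rw [Equiv.Perm.inv_eq_iff_eq, ha.2.1], by
    rw [Equiv.Perm.inv_eq_iff_eq, ha.2.2]⟩

theorem exists_eq {c : Equiv.Perm (Option F)} (hc : c none = none) (x : F) : ∃ y, c (some x) = some y := by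
  rcases h : c (some x) with _ | y
  · exfalso
    have := c.injective (h.trans hc.symm)
    exact Option.some_ne_none _ this
  · exact ⟨y, rfl⟩

/-- the action on the affine line -/
def fn (c : stab2 F) (x : F) : F := (c.1 (some x)).getD 0

theorem fn_spec (c : stab2 F) (x : F) : c.1 (some x) = some (fn c x) := by
  obtain ⟨y, hy⟩ := exists_eq c.2.2.1 x
  rw [fn, hy]
  rfl

theorem semilinear (h2 : (2 : F) ≠ 0) (c : stab2 F) :
    ∃ e : F, e ≠ 0 ∧ ∃ τ : F →+* F, ∀ x, fn c x = e * τ x := by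
  obtain ⟨φ, T, h⟩ := RankOneL2.exists_lift_fix h2 c.2.1 c.2.2.1 c.2.2.2
  have h3 := h.act (1, 0) (by simp)
  have h4 := h.act (0, 1) (by simp)
  rw [RankOneL2.pt_zero, c.2.2.1] at h3
  rw [RankOneL2.pt_ne _ one_ne_zero, zero_div, c.2.2.2] at h4
  obtain ⟨a, b, hab⟩ : ∃ a b, T (1, 0) = (a, b) := ⟨_, _, rfl⟩
  obtain ⟨c', d, hcd⟩ : ∃ a b, T (0, 1) = (a, b) := ⟨_, _, rfl⟩
  rw [hab] at h3
  rw [hcd] at h4
  have hb : b = 0 := by
    by_contra hb
    rw [RankOneL2.pt_ne _ hb] at h3
    exact Option.some_ne_none _ h3.symm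
  have hd : d ≠ 0 := by
    rintro rfl
    rw [RankOneL2.pt_zero] at h4
    exact Option.some_ne_none _ h4
  rw [RankOneL2.pt_ne _ hd] at h4
  have hc' : c' = 0 := by
    have := Option.some_injective _ h4
    rcases div_eq_zero_iff.1 this.symm with h | h
    · exact h
    · exact absurd h hd
  subst hb hc'
  have ha : a ≠ 0 := by
    rintro rfl
    exact RankOneL2.map_ne_zero' T (v := ((1, 0) : F × F)) (by simp) hab
  refine ⟨a / d, div_ne_zero ha hd, (φ : F →+* F), fun x => ?_⟩
  have h5 := h.act (x, 1) (by simp)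
  rw [RankOneL2.pt_ne _ one_ne_zero, div_one, fn_spec] at h5
  have h6 : T (x, 1) = (φ x * a, d) := by
    have h7 : ((x, 1) : F × F) = x • ((1, 0) : F × F) + ((0, 1) : F × F) := by simp
    rw [h7, map_add, h.semi, hab, hcd]
    simp
  rw [h6, RankOneL2.pt_ne _ hd] at h5
  have h7 := Option.some_injective _ h5
  rw [h7]
  change φ x * a / d = a / d * φ x
  ring

/-- **The projective line.** -/
theorem panelOK [Finite F] (h2 : (2 : F) ≠ 0) : PanelOK (lineFam F) := by
  classical
  refine rg.panelOK (p := none) (q := some 0) (by simp) ?_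
  intro r hrf hr A hA hAU hfix
  have hodd : Odd (Nat.card F) := by
    letI : Fintype F := Fintype.ofFinite F
    rw [Nat.card_eq_fintype_card]
    have hch : ringChar F ≠ 2 := by
      intro h
      apply h2
      have := (ringChar.spec F 2).2 (by rw [h])
      exact_mod_cast this
    exact Nat.odd_iff.2 (FiniteField.odd_card_of_char_ne_two hch)
  have hr2 : r ≠ 2 := by
    rintro rfl
    apply hr
    refine dvd_trans ?_ (rg.card_dvd (none : Option F))
    rw [Finite.card_option]
    exact even_iff_two_dvd.1 hodd.add_one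
  have hrF : ¬ r ∣ Nat.card F - 1 := by
    intro hd
    rw [← Nat.card_units] at hd
    obtain ⟨t, ht⟩ := exists_prime_orderOf_dvd_card' r hd
    have hrodd : Odd r := hrf.out.odd_of_ne_two hr2
    obtain ⟨k, hk⟩ := hrodd
    let s : Fˣ := t ^ (k + 1)
    have hst : s ^ 2 = t := by
      rw [← pow_mul, show (k + 1) * 2 = r + 1 by omega, pow_succ, ← ht, pow_orderOf_eq_one, one_mul]
    have hstF : (s : F) ^ 2 = t := by
      have := congrArg (fun x : Fˣ => (x : F)) hst
      simpa using this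
    apply hr
    have h3 : orderOf (hh (s : F)) = r := by
      refine orderOf_eq_prime ?_ ?_
      · apply Equiv.ext
        rintro (_ | x)
        · rw [hh_pow_none s.ne_zero]; rfl
        · rw [hh_pow_some s.ne_zero, hstF]
          have : (t : F) ^ r = 1 := by
            rw [← Units.val_pow_eq_pow_val, ← ht, pow_orderOf_eq_one, Units.val_one]
          rw [this, one_mul]; rfl
      · intro h
        have h4 := congrArg (fun g : Equiv.Perm (Option F) => g (some 1)) h
        have h5 : hh (s : F) (some 1) = some 1 := h4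
        rw [hh_some s.ne_zero, hstF, mul_one] at h5
        have h6 : t = 1 := Units.ext (by rw [Units.val_one]; exact Option.some_injective _ h5)
        rw [h6, orderOf_one] at ht
        exact hrf.out.one_lt.ne ht
    have h4 : hh (s : F) ∈ gen (lineFam F) := by
      rw [gen, iSup_lineFam]
      exact hh_mem _
    rw [← h3]
    exact Subgroup.orderOf_dvd_natCard _ h4
  have hAS : A ≤ stab2 F := fun a ha => ⟨hAU ha, (hfix a ha).1, (hfix a ha).2⟩
  obtain ⟨⟨w, hw, hwA⟩, hz⟩ := Semi.semi (G := stab2 F) (fun c x => fn c x) (fun x => by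
      have := fn_spec (1 : stab2 F) x
      exact (Option.some_injective _ this).symm) (fun g h x => by
      have h3 := fn_spec (g * h) x
      have h4 : (g * h).1 (some x) = g.1 (h.1 (some x)) := rfl
      rw [h4, fn_spec, fn_spec] at h3
      exact (Option.some_injective _ h3).symm) (semilinear h2) hrF (A.subgroupOf (stab2 F))
      (hA.comap_of_injective _ (stab2 F).subtype_injective)
  refine ⟨⟨none, some 0, some w, by simp, by simp, fun h => hw (Option.some_injective _ h).symm, ?_⟩, ?_⟩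
  · intro g hg
    refine ⟨(hfix g hg).1, (hfix g hg).2, ?_⟩
    have h3 := hwA ⟨g, hAS hg⟩ hg
    have h4 := fn_spec ⟨g, hAS hg⟩ w
    change fn ⟨g, hAS hg⟩ w = w at h3
    rw [h3] at h4
    exact h4
  · intro z hzU hzA m hm hzm hzf _
    have hz0 : z none = none := hzf _ fun a ha => (hfix a ha).1
    have hz1 : z (some 0) = some 0 := hzf _ fun a ha => (hfix a ha).2
    have h3 := hz ⟨z, hzU, hz0, hz1⟩ m hm (Subtype.ext hzm) (by
      intro w hw
      have h4 := fn_spec ⟨z, hzU, hz0, hz1⟩ w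
      have h5 : z (some w) = some w := by
        apply hzf
        intro a ha
        have h6 := fn_spec ⟨a, hAS ha⟩ w
        have h7 := hw ⟨a, hAS ha⟩ ha
        rw [h7] at h6
        exact h6
      have h6 : z (some w) = some (fn ⟨z, hzU, hz0, hz1⟩ w) := h4
      rw [h5] at h6
      exact (Option.some_injective _ h6).symm)
    apply Equiv.ext
    rintro (_ | x)
    · exact hz0
    · have h4 := fn_spec ⟨z, hzU, hz0, hz1⟩ x
      have h5 := h3 x
      rw [h5] at h4
      exact h4

end Cfsg.Agent.H255.PanelL2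
end

-- part: H255/NodeOdd
section
/-!
# Good nodes: the panels are projective lines or unitals

The transports are those of `FixBN.FieldNode`, `FixBN.UNode`, for `PanelOK` instead of `GoodFam`.
-/

set_option autoImplicit false

namespace Cfsg.Agent.H255.NodeOdd.Fld

open Cfsg.Agent.FixBN Cfsg.Agent.H255.Panel

theorem panelOK_of_model_f {G C : Type*} [Group G] [MulAction G C] {F : Type*} [Field F] (U : C → Subgroup G)
    (hU : ∀ (g : G) (x : C), ∀ u ∈ U x, g * u * g⁻¹ ∈ U (g • x)) {Q : Set C} (φ : Option F ≃ Q) (xx : F → G) (s : G)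
    (hx : ∀ a z, xx a • (φ z : C) = φ (tr a z)) (hs : ∀ z, s • (φ z : C) = φ (ni z))
    (hxU : ∀ a, xx a ∈ U (φ none)) (hUx : ∀ u ∈ U (φ none), ∃ a, ∀ z, u • (φ z : C) = φ (tr a z))
    (hF : PanelOK (lineFam F)) {fam : Q → Subgroup (Equiv.Perm Q)}
    (hfam : ∀ y g, g ∈ fam y ↔ ∃ u ∈ U y, ∀ z, (g z : C) = u • (z : C)) : PanelOK fam := by
  refine hF.map φ ?_
  -- the element of `G` acting as `toPt y`
  have hk : ∀ y : Option F, ∃ k : G, ∀ z, k • (φ z : C) = φ (toPt y z) := by
    rintro (_ | t)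
    · exact ⟨1, fun z => by rw [one_smul]; rfl⟩
    · refine ⟨xx t * s, fun z => ?_⟩
      rw [mul_smul, hs, hx]
      rfl
  intro y g
  obtain ⟨k, hk⟩ := hk y
  have hky : k • (φ none : C) = φ y := by rw [hk, toPt_apply]
  have hk' : ∀ z, k⁻¹ • (φ z : C) = φ ((toPt y)⁻¹ z) := by
    intro z
    rw [inv_smul_eq_iff, hk]
    congr 2
    exact ((toPt y).apply_symm_apply z).symm
  rw [hfam, mem_lineFam]
  constructor
  · rintro ⟨a, rfl⟩
    refine ⟨k * xx a * k⁻¹, ?_, ?_⟩
    · rw [← hky]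
      exact hU k _ _ (hxU a)
    · intro z
      obtain ⟨z, rfl⟩ := φ.surjective z
      rw [mul_smul, mul_smul, hk', hx, hk]
      congr 1
      show φ ((toPt y * tr a * (toPt y)⁻¹) (φ.symm (φ z))) = _
      rw [φ.symm_apply_apply]
      rfl
  · rintro ⟨u, hu, h⟩
    have hv : k⁻¹ * u * k ∈ U (φ none) := by
      have h1 := hU k⁻¹ _ u hu
      rwa [inv_inv, ← hky, inv_smul_smul] at h1
    obtain ⟨a, ha⟩ := hUx _ hv
    refine ⟨a, ?_⟩
    apply Equiv.ext
    intro z
    apply φ.injective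
    apply Subtype.ext
    have h1 := h (φ z)
    have h2 : φ.permCongr g (φ z) = φ (g z) := by
      show φ (g (φ.symm (φ z))) = _
      rw [φ.symm_apply_apply]
    rw [h2] at h1
    rw [h1]
    have h3 : u = k * (k⁻¹ * u * k) * k⁻¹ := by group
    rw [h3, mul_smul, mul_smul, hk', ha, hk]
    rfl


open Cfsg Cfsg.Agent.LieExceptional.BNPairCore Cfsg.Agent.Tits.Core Cfsg.Agent.Tits.Core.Bldg Cfsg.Agent.Tits.OfBN
  Cfsg.Agent.Schreier.BNSch Cfsg.Agent.FixBN.OfBN Cfsg.Agent.FixBN.FieldNode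

variable {K : Type*} [Group K] {P : Cfsg.BNPair K} {U V : Subgroup K} {s : K} {F : Type*} [Field F]

variable [hN : ((P.B ⊓ P.N).subgroupOf P.N).Normal] {p : ℕ} (S : Split P p U)
variable {I : Type*} {M : CoxeterMatrix I} (e : I ≃ P.S) (cs : CoxeterSystem M (WP P))
  (hcs : ∀ i, cs.simple i = QuotientGroup.mk (⟨(e i : K), P.subset (e i).2⟩ : P.N)) (i : I)

include S in
/-- The panel is the projective line, and the root groups are those of the line. -/
theorem panelOK_mk_f (Nd : Node P U (e i : K) V) (N : FieldNode P U (e i : K) V F) (hF : PanelOK (lineFam F)) (g : K)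
    {fam : (bldg P e cs hcs).Pan i (QuotientGroup.mk g) →
      Subgroup (Equiv.Perm ((bldg P e cs hcs).Pan i (QuotientGroup.mk g)))}
    (hfam : ∀ y f, f ∈ fam y ↔ ∃ u ∈ UU P U (y : K ⧸ P.B), ∀ z, (f z : K ⧸ P.B) = u • (z : K ⧸ P.B)) :
    PanelOK fam := by
  have hBx : ∀ a, N.x a ∈ P.B := fun a => S.le (N.mem a)
  -- the action of `V`
  have hV : ∀ v ∈ V, ∀ a : F, (QuotientGroup.mk (g * v * N.x a * (e i : K)) : K ⧸ P.B) =
      QuotientGroup.mk (g * N.x a * (e i : K)) := by
    intro v hv a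
    rw [mk_eq]
    have h1 : (g * v * N.x a * (e i : K))⁻¹ * (g * N.x a * (e i : K)) =
        ((e i : K)⁻¹ * ((N.x a)⁻¹ * v * (N.x a)⁻¹⁻¹) * (e i : K))⁻¹ := by group
    rw [h1]
    exact inv_mem (S.le (Nd.le (Nd.conj_s _ (Nd.conj_B _ (inv_mem (hBx a)) _ hv))))
  have hxact : ∀ a z, (g * N.x a * g⁻¹) • (par e cs hcs i S Nd N g z : K ⧸ P.B) =
      par e cs hcs i S Nd N g (tr a z) := by
    rintro a (_ | t)
    · rw [tr_none, par_none, smul_mk, mk_eq]
      have h1 : (g * N.x a * g⁻¹ * g)⁻¹ * g = (N.x a)⁻¹ := by group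
      rw [h1]
      exact inv_mem (hBx a)
    · rw [tr_some, par_some, par_some, smul_mk, add_comm t a, N.add]
      congr 1
      group
  refine panelOK_of_model_f (UU P U) (fun g x u hu => (smul_UU S).2 hu) (par e cs hcs i S Nd N g)
    (fun a => g * N.x a * g⁻¹) (g * (e i : K) * g⁻¹) hxact ?_ ?_ ?_ hF hfam
  · rintro (_ | t)
    · rw [ni_none, par_none, par_some, smul_mk, N.x_zero]
      congr 1
      group
    · by_cases ht : t = 0
      · subst ht
        rw [ni_zero, par_none, par_some, smul_mk, mk_eq, N.x_zero]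
        have h1 : (g * (e i : K) * g⁻¹ * (g * 1 * (e i : K)))⁻¹ * g = ((e i : K) * (e i : K))⁻¹ := by group
        rw [h1]
        exact inv_mem (P.sq_mem _ (e i).2)
      · rw [ni_some ht, par_some, par_some, smul_mk, mk_eq]
        have h1 : (g * (e i : K) * g⁻¹ * (g * N.x t * (e i : K)))⁻¹ * (g * N.x (-t⁻¹) * (e i : K)) =
            ((N.x (-t⁻¹) * (e i : K))⁻¹ * ((e i : K) * N.x t * (e i : K)))⁻¹ := by group
        rw [h1]
        exact inv_mem (N.inv t ht)
  · intro a
    rw [par_none, mem_UU S]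
    have h1 : g⁻¹ * (g * N.x a * g⁻¹) * g = N.x a := by group
    rw [h1]
    exact N.mem a
  · intro u hu
    rw [par_none, mem_UU S] at hu
    obtain ⟨a, ha⟩ := N.cover _ hu
    refine ⟨a, fun z => ?_⟩
    have h1 : u = (g * N.x a * g⁻¹) * (g * ((N.x a)⁻¹ * (g⁻¹ * u * g)) * g⁻¹) := by group
    have h2 : (g * ((N.x a)⁻¹ * (g⁻¹ * u * g)) * g⁻¹) • (par e cs hcs i S Nd N g z : K ⧸ P.B) =
        par e cs hcs i S Nd N g z := by
      rcases z with _ | t
      · rw [par_none, smul_mk_eq]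
        have h3 : g⁻¹ * (g * ((N.x a)⁻¹ * (g⁻¹ * u * g)) * g⁻¹) * g = (N.x a)⁻¹ * (g⁻¹ * u * g) := by group
        rw [h3]
        exact S.le (Nd.le ha)
      · rw [par_some, smul_mk]
        have h3 : g * ((N.x a)⁻¹ * (g⁻¹ * u * g)) * g⁻¹ * (g * N.x t * (e i : K)) =
            g * ((N.x a)⁻¹ * (g⁻¹ * u * g)) * N.x t * (e i : K) := by group
        rw [h3]
        exact hV _ ha t
    rw [h1, mul_smul, h2, hxact]


end Cfsg.Agent.H255.NodeOdd.Fld

namespace Cfsg.Agent.H255.NodeOdd.Uni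

open Cfsg.Agent.FixBN Cfsg.Agent.H255.Panel
open Cfsg.Agent.FixBN.U3Model Cfsg.Agent.FixBN.U3Core Cfsg.Agent.FixBN.RankOneU3

local notation "tl" => U3Model.tr

theorem panelOK_of_model_u {G C : Type*} [Group G] [MulAction G C] {F : Type*} [Field F] {σ : F →+* F} [Inv2 σ]
    (U : C → Subgroup G)
    (hU : ∀ (g : G) (x : C), ∀ u ∈ U x, g * u * g⁻¹ ∈ U (g • x)) {Q : Set C} (φ : Om σ ≃ Q) (xx : Pt σ → G) (s : G)
    (hx : ∀ a z, xx a • (φ z : C) = φ (tl a z)) (hs : ∀ z, s • (φ z : C) = φ (jj z))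
    (hxU : ∀ a, xx a ∈ U (φ none)) (hUx : ∀ u ∈ U (φ none), ∃ a, ∀ z, u • (φ z : C) = φ (tl a z))
    (hF : PanelOK (u3Fam σ)) {fam : Q → Subgroup (Equiv.Perm Q)}
    (hfam : ∀ y g, g ∈ fam y ↔ ∃ u ∈ U y, ∀ z, (g z : C) = u • (z : C)) : PanelOK fam := by
  refine hF.map φ ?_
  have htoPt : ∀ y : Om σ, RankOneU3.toPt y (none : Om σ) = y := by
    rintro (_ | x)
    · rfl
    · show tl x (jj none) = some x
      rw [jj_none, U3Model.tr_some, mul_one]
  -- the element of `G` acting as `RankOneU3.toPt y`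
  have hk : ∀ y : Om σ, ∃ k : G, ∀ z, k • (φ z : C) = φ (RankOneU3.toPt y z) := by
    rintro (_ | t)
    · exact ⟨1, fun z => by rw [one_smul]; rfl⟩
    · refine ⟨xx t * s, fun z => ?_⟩
      rw [mul_smul, hs, hx]
      rfl
  intro y g
  obtain ⟨k, hk⟩ := hk y
  have hky : k • (φ none : C) = φ y := by rw [hk, htoPt]
  have hk' : ∀ z, k⁻¹ • (φ z : C) = φ ((RankOneU3.toPt y)⁻¹ z) := by
    intro z
    rw [inv_smul_eq_iff, hk]
    congr 2
    exact ((RankOneU3.toPt y).apply_symm_apply z).symm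
  rw [hfam]
  constructor
  · rintro ⟨a, rfl⟩
    refine ⟨k * xx a * k⁻¹, ?_, ?_⟩
    · rw [← hky]
      exact hU k _ _ (hxU a)
    · intro z
      obtain ⟨z, rfl⟩ := φ.surjective z
      rw [mul_smul, mul_smul, hk', hx, hk]
      congr 1
      show φ ((RankOneU3.toPt y * tl a * (RankOneU3.toPt y)⁻¹) (φ.symm (φ z))) = _
      rw [φ.symm_apply_apply]
      rfl
  · rintro ⟨u, hu, h⟩
    have hv : k⁻¹ * u * k ∈ U (φ none) := by
      have h1 := hU k⁻¹ _ u hu
      rwa [inv_inv, ← hky, inv_smul_smul] at h1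
    obtain ⟨a, ha⟩ := hUx _ hv
    refine ⟨a, ?_⟩
    apply Equiv.ext
    intro z
    apply φ.injective
    apply Subtype.ext
    have h1 := h (φ z)
    have h2 : φ.permCongr g (φ z) = φ (g z) := by
      show φ (g (φ.symm (φ z))) = _
      rw [φ.symm_apply_apply]
    rw [h2] at h1
    rw [h1]
    have h3 : u = k * (k⁻¹ * u * k) * k⁻¹ := by group
    rw [h3, mul_smul, mul_smul, hk', ha, hk]
    rfl


open Cfsg Cfsg.Agent.LieExceptional.BNPairCore Cfsg.Agent.Tits.Core Cfsg.Agent.Tits.Core.Bldg Cfsg.Agent.Tits.OfBN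
  Cfsg.Agent.Schreier.BNSch Cfsg.Agent.FixBN.OfBN Cfsg.Agent.FixBN.UNode Cfsg.Agent.FixBN.UNode.UNode

variable {K : Type*} [Group K] {P : Cfsg.BNPair K} {U V : Subgroup K} {s : K} {F : Type*} [Field F]
  {σ : F →+* F} [Inv2 σ]

variable [hN : ((P.B ⊓ P.N).subgroupOf P.N).Normal] {p : ℕ} (S : Split P p U)
variable {I : Type*} {M : CoxeterMatrix I} (e : I ≃ P.S) (cs : CoxeterSystem M (WP P))
  (hcs : ∀ i, cs.simple i = QuotientGroup.mk (⟨(e i : K), P.subset (e i).2⟩ : P.N)) (i : I)

include S in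
/-- The panel is the set of isotropic points, and the root groups are the standard ones. -/
theorem panelOK_mk_u (Nd : Node P U (e i : K) V) (N : UNode P U (e i : K) V σ) (hF : PanelOK (u3Fam σ)) (g : K)
    {fam : (bldg P e cs hcs).Pan i (QuotientGroup.mk g) →
      Subgroup (Equiv.Perm ((bldg P e cs hcs).Pan i (QuotientGroup.mk g)))}
    (hfam : ∀ y f, f ∈ fam y ↔ ∃ u ∈ UU P U (y : K ⧸ P.B), ∀ z, (f z : K ⧸ P.B) = u • (z : K ⧸ P.B)) :
    PanelOK fam := by
  have hBx : ∀ a, N.x a ∈ P.B := fun a => S.le (N.mem a)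
  -- the action of `V`
  have hV : ∀ v ∈ V, ∀ a : Pt σ, (QuotientGroup.mk (g * v * N.x a * (e i : K)) : K ⧸ P.B) =
      QuotientGroup.mk (g * N.x a * (e i : K)) := by
    intro v hv a
    rw [mk_eq]
    have h1 : (g * v * N.x a * (e i : K))⁻¹ * (g * N.x a * (e i : K)) =
        ((e i : K)⁻¹ * ((N.x a)⁻¹ * v * (N.x a)⁻¹⁻¹) * (e i : K))⁻¹ := by group
    rw [h1]
    exact inv_mem (S.le (Nd.le (Nd.conj_s _ (Nd.conj_B _ (inv_mem (hBx a)) _ hv))))
  have hxact : ∀ a z, (g * N.x a * g⁻¹) • (par e cs hcs i S Nd N g z : K ⧸ P.B) =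
      par e cs hcs i S Nd N g (tl a z) := by
    rintro a (_ | t)
    · rw [U3Model.tr_none, par_none, smul_mk, mk_eq]
      have h1 : (g * N.x a * g⁻¹ * g)⁻¹ * g = (N.x a)⁻¹ := by group
      rw [h1]
      exact inv_mem (hBx a)
    · rw [U3Model.tr_some, par_some, par_some, smul_mk, N.mul]
      congr 1
      group
  refine panelOK_of_model_u (UU P U) (fun g x u hu => (smul_UU S).2 hu) (par e cs hcs i S Nd N g)
    (fun a => g * N.x a * g⁻¹) (g * (e i : K) * g⁻¹) hxact ?_ ?_ ?_ hF hfam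
  · rintro (_ | t)
    · rw [jj_none, par_none, par_some, smul_mk, N.x_one]
      congr 1
      group
    · by_cases ht : t = 1
      · subst ht
        rw [jj_one, par_none, par_some, smul_mk, mk_eq, N.x_one]
        have h1 : (g * (e i : K) * g⁻¹ * (g * 1 * (e i : K)))⁻¹ * g = ((e i : K) * (e i : K))⁻¹ := by group
        rw [h1]
        exact inv_mem (P.sq_mem _ (e i).2)
      · rw [jj_some ht, par_some, par_some, smul_mk, mk_eq]
        have h1 : (g * (e i : K) * g⁻¹ * (g * N.x t * (e i : K)))⁻¹ * (g * N.x (J t) * (e i : K)) =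
            ((N.x (J t) * (e i : K))⁻¹ * ((e i : K) * N.x t * (e i : K)))⁻¹ := by group
        rw [h1]
        exact inv_mem (N.inv t ht)
  · intro a
    rw [par_none, mem_UU S]
    have h1 : g⁻¹ * (g * N.x a * g⁻¹) * g = N.x a := by group
    rw [h1]
    exact N.mem a
  · intro u hu
    rw [par_none, mem_UU S] at hu
    obtain ⟨a, ha⟩ := N.cover _ hu
    refine ⟨a, fun z => ?_⟩
    have h1 : u = (g * N.x a * g⁻¹) * (g * ((N.x a)⁻¹ * (g⁻¹ * u * g)) * g⁻¹) := by group
    have h2 : (g * ((N.x a)⁻¹ * (g⁻¹ * u * g)) * g⁻¹) • (par e cs hcs i S Nd N g z : K ⧸ P.B) =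
        par e cs hcs i S Nd N g z := by
      rcases z with _ | t
      · rw [par_none, smul_mk_eq]
        have h3 : g⁻¹ * (g * ((N.x a)⁻¹ * (g⁻¹ * u * g)) * g⁻¹) * g = (N.x a)⁻¹ * (g⁻¹ * u * g) := by group
        rw [h3]
        exact S.le (Nd.le ha)
      · rw [par_some, smul_mk]
        have h3 : g * ((N.x a)⁻¹ * (g⁻¹ * u * g)) * g⁻¹ * (g * N.x t * (e i : K)) =
            g * ((N.x a)⁻¹ * (g⁻¹ * u * g)) * N.x t * (e i : K) := by group
        rw [h3]
        exact hV _ ha t
    rw [h1, mul_smul, h2, hxact]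


end Cfsg.Agent.H255.NodeOdd.Uni

namespace Cfsg.Agent.H255.NodeOdd

open Cfsg Cfsg.Agent.Tits.Core Cfsg.Agent.Tits.OfBN Cfsg.Agent.Schreier.BNSch Cfsg.Agent.FixBN.UNode
  Cfsg.Agent.FixBN.U3Model Cfsg.Agent.FixBN.RankOneU3 Cfsg.Agent.FixBN.U3Core Cfsg.Agent.FixBN Cfsg.Agent.H255.Panel

variable {K : Type*} [Group K] [Finite K] {P : Cfsg.BNPair K} {U : Subgroup K} {p : ℕ} [Fact p.Prime]
  [hN : ((P.B ⊓ P.N).subgroupOf P.N).Normal] (S : Split P p U)
  {I : Type*} {M : CoxeterMatrix I} (e : I ≃ P.S) (cs : CoxeterSystem M (WP P))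
  (hcs : ∀ i, cs.simple i = QuotientGroup.mk (⟨(e i : K), P.subset (e i).2⟩ : P.N))

/-- **Good nodes.** -/
theorem panelOK {i : I} (h : GoodNode P U (e i : K)) (x : K ⧸ P.B) :
    PanelOK ((OfBN.sys e cs hcs S).fam i x) := by
  induction x using QuotientGroup.induction_on with
  | _ g =>
  obtain ⟨V, Nd, ⟨F, _, _, h2, ⟨N⟩⟩ | ⟨F, _, σ, _, hσ, ⟨N⟩⟩⟩ := h
  · exact Fld.panelOK_mk_f S e cs hcs i Nd N (PanelL2.panelOK h2) g fun y f => Iff.rfl
  · have hinj : Function.Injective N.x := fun a b hab => by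
      have h1 : N.x (a⁻¹ * b) = 1 := by rw [N.mul, N.x_inv, hab, inv_mul_cancel]
      exact inv_mul_eq_one.1 (N.ne _ (by rw [h1]; exact one_mem _))
    have hfp : Finite (Pt σ) := Finite.of_injective N.x hinj
    have hfF : Finite F := by
      refine Finite.of_injective (fun a : F => (exists_pt hσ a).choose) fun a b hab => ?_
      have h1 := (exists_pt hσ a).choose_spec
      have h2 := (exists_pt hσ b).choose_spec
      have h3 : (exists_pt hσ a).choose = (exists_pt hσ b).choose := hab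
      rw [← h1, ← h2, h3]
    exact Uni.panelOK_mk_u S e cs hcs i Nd N (PanelU3.panelOK hσ) g fun y f => Iff.rfl

end Cfsg.Agent.H255.NodeOdd
end

private theorem dce_19787eadb209 : _root_.True := by
  try have : _root_.True := by simp only [_root_.Cfsg.Agent.H255.PanelL2.fn.eq_1]
  exact _root_.True.intro
end
end
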